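import Cfsg.Agent.BMx.CvM11L
import Cfsg.Agent.BMx.CvM11T
import Cfsg.Agent.BMx.CvM11Q

/-!
# A cover (helper94, for S5527; generated)
-/

set_option autoImplicit false
set_option maxRecDepth 100000

namespace Cfsg.Agent.BMx.Cov.M11

open Cfsg.Agent.Lib.PackMat Cfsg.Agent.Lib.PackMatMul Cfsg.Agent.Lib.PackMatOrbit

theorem base : baseC C5 dat dw aw = true := by decide +kernel

theorem tst : tstC C5 dat tw Tt = true := by decide +kernel

theorem root : rootC C5 L T = true := by decide +kernel

/-- **The cover.** -/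
theorem cover (n : ℕ) {M : Fin 6 → Matrix (Fin 5) (Fin 5) (ZMod 5)}
    (hM : ∀ i, M i = mat C5 (getO (oneM C5) dat.G0 i.val)) : Cover n M dw aw tw :=
  cover_of (C := C5) good5 (by decide) base (tstC_sound tst) allL allT root allQ rfl rfl vec n hM

end Cfsg.Agent.BMx.Cov.M11
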