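import Cfsg.Agent.BMx.Fr5Chk
import Cfsg.Agent.BMx.CvM11
import Cfsg.Agent.BMx.CvP11

/-!
# The covers in `N(5B)` (helper94, for S5527)
-/

set_option autoImplicit false

namespace Cfsg.Agent.BMx.Cov

open Cfsg.Agent.Lib.PackMat Cfsg.Agent.Lib.PackMatMul Cfsg.Agent.Lib.PackMatOrbit

/-- the cover for `M11` -/
theorem coverM11 (n : ℕ) : Cover n Fr5.M5 M11.dw [] M11.tw :=
  M11.cover n (by
    have h : ∀ (i : Fin 6) (q : Fin 5 × Fin 5),
        Fr5.M5 i q.1 q.2 = (dg 14 (getO (oneM C5) M11.dat.G0 i.val) (q.1 + 5 * q.2) : ZMod 5) := by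
      decide +kernel
    exact fun i => Matrix.ext fun j k => h i (j, k))

/-- the cover for `PGL2(11)` -/
theorem coverP11 (n : ℕ) : Cover n Fr5.M5 P11.dw [] P11.tw :=
  P11.cover n (by
    have h : ∀ (i : Fin 6) (q : Fin 5 × Fin 5),
        Fr5.M5 i q.1 q.2 = (dg 14 (getO (oneM C5) P11.dat.G0 i.val) (q.1 + 5 * q.2) : ZMod 5) := by
      decide +kernel
    exact fun i => Matrix.ext fun j k => h i (j, k))

end Cfsg.Agent.BMx.Cov
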