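import Cfsg.Agent.BMx.CvM11D

/-!
# The list of a cover (helper94, for S5527; generated)
-/

set_option autoImplicit false
set_option maxRecDepth 100000

namespace Cfsg.Agent.BMx.Cov.M11

open Cfsg.Agent.Lib.PackMat Cfsg.Agent.Lib.PackMatMul Cfsg.Agent.Lib.PackMatOrbit

theorem cL0 : lstC C5 dat L L0 = true := by decide +kernel

theorem cL1 : lstC C5 dat L L1 = true := by decide +kernel

theorem nlstC0 : lstC C5 dat L (.node .nil (nat_lit 0x10000000000000000080010010002000c004000c002000c00100000010010001000000100040000008000) (nat_lit 10) (nat_lit 6665) (nat_lit 1) .nil) = true := by decide +kernel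

theorem cL2 : lstC C5 dat L L2 = true := by decide +kernel

theorem cL3 : lstC C5 dat L L3 = true := by decide +kernel

theorem nlstC1 : lstC C5 dat L (.node .nil (nat_lit 0x20000000000000000080010010002000c0000008003000c00000040010008002001000100040020004001) (nat_lit 12) (nat_lit 6498) (nat_lit 0) .nil) = true := by decide +kernel

theorem nlstC2 : lstC C5 dat L (.node .nil (nat_lit 0x2000000000000000000000000000100000030008000000c00200000010000000000000200000020010000) (nat_lit 15) (nat_lit 2288) (nat_lit 1) .nil) = true := by decide +kernel

theorem cL4 : lstC C5 dat L L4 = true := by decide +kernel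

theorem cL5 : lstC C5 dat L L5 = true := by decide +kernel

theorem nlstC3 : lstC C5 dat L (.node .nil (nat_lit 0x30000000000000000080010010002000c0010004004000c004000400100080020010001000c0020008002) (nat_lit 15) (nat_lit 4956) (nat_lit 1) .nil) = true := by decide +kernel

theorem cL6 : lstC C5 dat L L6 = true := by decide +kernel

theorem cL7 : lstC C5 dat L L7 = true := by decide +kernel

theorem nlstC4 : lstC C5 dat L (.node .nil (nat_lit 0x40000000000000000080010010002000c0020000000000c003000000100100010000000000c0010000004) (nat_lit 13) (nat_lit 5088) (nat_lit 0) .nil) = true := by decide +kernel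

theorem nlstC5 : lstC C5 dat L (.node .nil (nat_lit 0x4000000000000000000000000000100000010010000000800400000000004000000000400040010010000) (nat_lit 12) (nat_lit 4002) (nat_lit 0) .nil) = true := by decide +kernel

theorem nlstC6 : lstC C5 dat L (.node .nil (nat_lit 0x300000000000000000000000000010000002000c000000000300000010000000000000300040030010000) (nat_lit 10) (nat_lit 2506) (nat_lit 0) .nil) = true := by decide +kernel

theorem allL : L.All (lstP C5 dat L) :=
  (Tr.All.node (Tr.All.node (Tr.All.node (lstC_sound cL0) (lstC_sound nlstC0) (lstC_sound cL1)) (lstC_sound nlstC2) (Tr.All.node (lstC_sound cL2) (lstC_sound nlstC1) (lstC_sound cL3))) (lstC_sound nlstC6) (Tr.All.node (Tr.All.node (lstC_sound cL4) (lstC_sound nlstC3) (lstC_sound cL5)) (lstC_sound nlstC5) (Tr.All.node (lstC_sound cL6) (lstC_sound nlstC4) (lstC_sound cL7))))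

end Cfsg.Agent.BMx.Cov.M11
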