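import Cfsg.Agent.BMx.CvP11D

/-!
# The targets of a cover (helper94, for S5527; generated)
-/

set_option autoImplicit false
set_option maxRecDepth 100000

namespace Cfsg.Agent.BMx.Cov.P11

open Cfsg.Agent.Lib.PackMat Cfsg.Agent.Lib.PackMatMul Cfsg.Agent.Lib.PackMatOrbit

theorem q0 : tgtC C5 dat ((qs.drop 0).take 4) = true := by decide +kernel

theorem q4 : tgtC C5 dat ((qs.drop 4).take 4) = true := by decide +kernel

theorem q8 : tgtC C5 dat ((qs.drop 8).take 4) = true := by decide +kernel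

theorem q12 : tgtC C5 dat ((qs.drop 12).take 4) = true := by decide +kernel

theorem q16 : tgtC C5 dat ((qs.drop 16).take 4) = true := by decide +kernel

theorem q20 : tgtC C5 dat ((qs.drop 20).take 4) = true := by decide +kernel

theorem q24 : tgtC C5 dat (qs.drop 24) = true := by decide +kernel

theorem allQ : ∀ q ∈ qs.drop 0, tgtB (mulM C5) (oneM C5) (C5.p - 1) dat q = true :=
  (chunk 0 4 (tgtC_sound q0)
    (chunk 4 4 (tgtC_sound q4)
    (chunk 8 4 (tgtC_sound q8)
    (chunk 12 4 (tgtC_sound q12)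
    (chunk 16 4 (tgtC_sound q16)
    (chunk 20 4 (tgtC_sound q20)
    (tgtC_sound q24)))))))

theorem vec : vecC C5 dat 0 [[0, 2, 0, 2], [0, 0, 2, 0, 0, 2], [1, 0, 2, 0, 1, 2], [0, 0, 0, 2, 0, 0, 0, 2], [0], [0, 0], [0, 0, 0], [1, 0, 1]] = true := by decide +kernel

end Cfsg.Agent.BMx.Cov.P11
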