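import Cfsg.Agent.BMx.CvP11D

/-!
# The cosets of a cover (helper94, for S5527; generated)
-/

set_option autoImplicit false
set_option maxRecDepth 100000

namespace Cfsg.Agent.BMx.Cov.P11

open Cfsg.Agent.Lib.PackMat Cfsg.Agent.Lib.PackMatMul Cfsg.Agent.Lib.PackMatOrbit

theorem cT0 : cosC C5 dat L T T0 = true := by decide +kernel

theorem allT : T.All (cosP C5 dat L T) :=
  (cosC_sound cT0)

end Cfsg.Agent.BMx.Cov.P11
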