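import Cfsg.Agent.BMx.Loc

/-!
# Subgroups of the Baby Monster with order divisible by two large primes (helper94, for S5527)

`top47` : `47 r ∣ |X|`, `r = 5, 7, 11, 13, 17, 19, 31`; `top31` : `31 r ∣ |X|`, `r = 11, 17, 23`; in each case `X = ⊤`.
-/

set_option autoImplicit false
set_option maxRecDepth 100000

namespace Cfsg.Agent.BMx.Top

open Cfsg Subgroup Cfsg.Agent.OrdDiv Cfsg.Agent.H940.Eng Cfsg.Agent.H940.Eng.D Cfsg.Agent.BMx.Loc

theorem card_b : Nat.card BM = n_b := card_BM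

def ld47 : LD := ⟨47, 47, [(23, 1), (47, 1)]⟩
def ld31 : LD := ⟨31, 31, [(3, 1), (5, 1), (31, 1)]⟩
def ld23 : LD := ⟨23, 46, [(2, 1), (11, 1), (23, 1)]⟩
def ld19 : LD := ⟨19, 38, [(2, 2), (3, 2), (19, 1)]⟩
def ld17 : LD := ⟨17, 68, [(2, 6), (17, 1)]⟩
def ld13 : LD := ⟨13, 312, [(2, 5), (3, 2), (13, 1)]⟩
def ld11 : LD := ⟨11, 1320, [(2, 4), (3, 1), (5, 2), (11, 1)]⟩

theorem loc47 : Loc BM ld47 := loc_of_eq card_b (by decide +kernel) (by decide +kernel) (by decide +kernel)
  fun _ hR => ⟨(cn47 hR).1.dvd, (cn47 hR).2.dvd.trans (by decide +kernel)⟩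

theorem loc31 : Loc BM ld31 := loc_of_eq card_b (by decide +kernel) (by decide +kernel) (by decide +kernel)
  fun _ hR => ⟨(cn31 hR).1.dvd, (cn31 hR).2.dvd.trans (by decide +kernel)⟩

theorem loc23 : Loc BM ld23 := loc_of_eq card_b (by decide +kernel) (by decide +kernel) (by decide +kernel)
  fun _ hR => ⟨(cn23 hR).1.dvd, (cn23 hR).2.dvd.trans (by decide +kernel)⟩

theorem loc19 : Loc BM ld19 := loc_of_eq card_b (by decide +kernel) (by decide +kernel) (by decide +kernel)
  fun _ hR => ⟨(cn19 hR).1.dvd, (cn19 hR).2.dvd.trans (by decide +kernel)⟩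

theorem loc17 : Loc BM ld17 := loc_of_eq card_b (by decide +kernel) (by decide +kernel) (by decide +kernel)
  fun _ hR => ⟨(cn17 hR).1.dvd, (cn17 hR).2.dvd.trans (by decide +kernel)⟩

theorem loc13 : Loc BM ld13 := loc_of_eq card_b (by decide +kernel) (by decide +kernel) (by decide +kernel)
  fun _ hR => ⟨(cn13 hR).1.dvd, (cn13 hR).2.dvd.trans (by decide +kernel)⟩

theorem loc11 : Loc BM ld11 := loc_of_eq card_b (by decide +kernel) (by decide +kernel) (by decide +kernel)
  fun _ hR => ⟨(cn11 hR).1.dvd, (cn11 hR).2.dvd.trans (by decide +kernel)⟩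

/-- all the local data -/
def locAll : List LD := [ld47, ld31, ld23, ld19, ld17, ld13, ld11]

theorem loc_all : ∀ ld ∈ locAll, Loc BM ld := by
  intro ld hld
  simp only [locAll, List.mem_cons, List.not_mem_nil, or_false] at hld
  rcases hld with rfl | rfl | rfl | rfl | rfl | rfl | rfl
  exacts [loc47, loc31, loc23, loc19, loc17, loc13, loc11]

/-- the context of the order engine -/
theorem ctx : Ctx BM l_b n_b o_b locAll where
  fin := fin_BM
  simple := simple_BM
  card := card_b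
  val := v_b
  nodup := nd_b
  ords := ords_b engBase
  loc := loc_all

/-- the general form: `L ∣ |X|` and a check -/
theorem top_of {L : ℕ} {ld : LD} (hld : Loc BM ld) {loc : List LD} (hl : ∀ ld ∈ loc, Loc BM ld)
    (hc : check2 l_b n_b L ld [] 60 loc o_b = true) {X : Subgroup BM} (hX : L ∣ Nat.card X) : X = ⊤ := by
  have := fin_BM
  have := simple_BM
  exact top_of_check2 v_b nd_b card_b (ords_b engBase) hl hld (fun _ h => absurd h List.not_mem_nil) hX hc

theorem one47 : ∀ ld ∈ [ld47], Loc BM ld := fun _ h => (List.mem_singleton.1 h) ▸ loc47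

theorem one31 : ∀ ld ∈ [ld31], Loc BM ld := fun _ h => (List.mem_singleton.1 h) ▸ loc31

theorem two31 : ∀ ld ∈ [ld31, ld17], Loc BM ld := by
  intro ld hld
  simp only [List.mem_cons, List.not_mem_nil, or_false] at hld
  rcases hld with rfl | rfl
  exacts [loc31, loc17]

theorem chk47 : ([5, 7, 11, 13, 17, 19, 31].all fun r => check2 l_b n_b (47 * r) ld47 [] 60 [ld47] o_b) = true := by
  decide +kernel

theorem chk31_11 : check2 l_b n_b (31 * 11) ld31 [] 60 [ld31] o_b = true := by decide +kernel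

theorem chk31_23 : check2 l_b n_b (31 * 23) ld31 [] 60 [ld31] o_b = true := by decide +kernel

theorem chk31_17 : check2 l_b n_b (31 * 17) ld31 [] 60 [ld31, ld17] o_b = true := by decide +kernel

theorem mul_dvd {p r n : ℕ} (h : Nat.Coprime p r) (hp : p ∣ n) (hr : r ∣ n) : p * r ∣ n :=
  h.mul_dvd_of_dvd_of_dvd hp hr

/-- **47 and one of 5, 7, 11, 13, 17, 19, 31.** -/
theorem top47 {X : Subgroup BM} (h47 : 47 ∣ Nat.card X) {r : ℕ} (hr : r ∈ [5, 7, 11, 13, 17, 19, 31])
    (h : r ∣ Nat.card X) : X = ⊤ := by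
  have h1 := List.all_eq_true.1 chk47 r hr
  refine top_of loc47 one47 h1 (mul_dvd ?_ h47 h)
  simp only [List.mem_cons, List.not_mem_nil, or_false] at hr
  rcases hr with rfl | rfl | rfl | rfl | rfl | rfl | rfl <;> norm_num

theorem top47_5 {X : Subgroup BM} (h47 : 47 ∣ Nat.card X) (h : 5 ∣ Nat.card X) : X = ⊤ := top47 h47 (by decide) h
theorem top47_11 {X : Subgroup BM} (h47 : 47 ∣ Nat.card X) (h : 11 ∣ Nat.card X) : X = ⊤ := top47 h47 (by decide) h
theorem top47_13 {X : Subgroup BM} (h47 : 47 ∣ Nat.card X) (h : 13 ∣ Nat.card X) : X = ⊤ := top47 h47 (by decide) h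
theorem top47_17 {X : Subgroup BM} (h47 : 47 ∣ Nat.card X) (h : 17 ∣ Nat.card X) : X = ⊤ := top47 h47 (by decide) h
theorem top47_31 {X : Subgroup BM} (h47 : 47 ∣ Nat.card X) (h : 31 ∣ Nat.card X) : X = ⊤ := top47 h47 (by decide) h

/-- **31 and 11.** -/
theorem top31_11 {X : Subgroup BM} (h31 : 31 ∣ Nat.card X) (h : 11 ∣ Nat.card X) : X = ⊤ :=
  top_of loc31 one31 chk31_11 (mul_dvd (by norm_num) h31 h)

/-- **31 and 23.** -/
theorem top31_23 {X : Subgroup BM} (h31 : 31 ∣ Nat.card X) (h : 23 ∣ Nat.card X) : X = ⊤ :=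
  top_of loc31 one31 chk31_23 (mul_dvd (by norm_num) h31 h)

/-- **31 and 17.** -/
theorem top31_17 {X : Subgroup BM} (h31 : 31 ∣ Nat.card X) (h : 17 ∣ Nat.card X) : X = ⊤ :=
  top_of loc31 two31 chk31_17 (mul_dvd (by norm_num) h31 h)

/-- the order of an element of a subgroup divides its order -/
theorem dvd_of_mem {X : Subgroup BM} {g : BM} (hg : g ∈ X) {r : ℕ} (hr : r ∣ orderOf g) : r ∣ Nat.card X := by
  have h := orderOf_dvd_natCard (⟨g, hg⟩ : X)
  rw [Subgroup.orderOf_mk] at h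
  exact hr.trans h

end Cfsg.Agent.BMx.Top
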